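import Mathlib
import Cfsg.Agent.Lib.Helper92.TW.Defs
import Cfsg.Agent.Lib.Helper92.TW.CORE

/-! Thompson-Wielandt ladder, rung FIT: if the point stabilizer of the subconstituent has trivial
Fitting subgroup then `O_p(M ∩ N)` lies in the kernel of the subconstituent. -/

set_option autoImplicit false

namespace Cfsg.Agent.Lib.Helper92

open Cfsg.Agent.Lib.Helper28

open scoped Nat

variable {G : Type*} [Group G] {M N A₁ B₁ A₂ B₂ : Subgroup G}

theorem opIn_le_coreIn_of_fitting {Ω : Type*} [Finite G] [MulAction G Ω] (a b : Ω)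
    (hF : Cfsg.fittingSubgroup ↥(((MulAction.stabilizer G b).subgroupOf
      (MulAction.stabilizer G a)).map (MulAction.toPermHom (MulAction.stabilizer G a)
        (MulAction.orbit (MulAction.stabilizer G a) b))) = ⊥) (p : ℕ) [Fact p.Prime] :
    opIn p (MulAction.stabilizer G a ⊓ MulAction.stabilizer G b) ≤
      coreIn (MulAction.stabilizer G a) (MulAction.stabilizer G a ⊓ MulAction.stabilizer G b) := by
  obtain ⟨M, hM⟩ : ∃ M, M = MulAction.stabilizer G a := ⟨_, rfl⟩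
  obtain ⟨N, hN⟩ : ∃ N, N = MulAction.stabilizer G b := ⟨_, rfl⟩
  rw [← hM] at hF ⊢
  rw [← hN] at hF ⊢
  obtain ⟨f, hf⟩ : ∃ f, f = MulAction.toPermHom M (MulAction.orbit M b) := ⟨_, rfl⟩
  rw [← hf] at hF
  obtain ⟨P, hP⟩ : ∃ P, P = opIn p (M ⊓ N) := ⟨_, rfl⟩
  rw [← hP]
  have hPD : P ≤ M ⊓ N := hP ▸ opIn_le p _
  have hPp : IsPGroup p ↥P := hP ▸ opIn_isPGroup p _
  have hPn : M ⊓ N ≤ Subgroup.normalizer (P : Set G) := hP ▸ le_normalizer_opIn p _
  have hPM : P ≤ M := hPD.trans inf_le_left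
  -- the image of `P`
  have hQI : (P.subgroupOf M).map f ≤ (N.subgroupOf M).map f := by
    apply Subgroup.map_mono
    intro x hx
    rw [Subgroup.mem_subgroupOf] at hx ⊢
    exact (hPD hx).2
  have hQp : IsPGroup p ↥((P.subgroupOf M).map f) :=
    (hPp.of_equiv (Subgroup.subgroupOfEquivOfLe hPM).symm).map f
  have hfin : Finite ↥((P.subgroupOf M).map f) :=
    Finite.of_surjective _ (f.subgroupMap_surjective (P.subgroupOf M))
  have hQnil : Group.IsNilpotent ↥((P.subgroupOf M).map f) := hQp.isNilpotent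
  have hQn : (N.subgroupOf M).map f ≤
      Subgroup.normalizer (((P.subgroupOf M).map f : Subgroup _) : Set _) := by
    apply TW.le_normalizer_of_conj_mem
    rintro _ ⟨d, hd, rfl⟩ _ ⟨x, hx, rfl⟩
    refine ⟨d * x * d⁻¹, ?_, by simp⟩
    rw [SetLike.mem_coe, Subgroup.mem_subgroupOf] at hd hx ⊢
    exact TW.conj_mem_of_le_normalizer hPn (⟨d.2, hd⟩ : (d : G) ∈ M ⊓ N) hx
  have hle := le_fitIn hQI hQn hQnil
  have hbot : (P.subgroupOf M).map f = ⊥ := by
    rw [eq_bot_iff]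
    refine hle.trans ?_
    unfold fitIn
    rw [hF, Subgroup.map_bot]
  intro x hx
  rw [mem_coreIn]
  refine ⟨hPM hx, fun m hm => ?_⟩
  refine ⟨M.mul_mem (M.mul_mem hm (hPM hx)) (M.inv_mem hm), ?_⟩
  have h1 : f ⟨x, hPM hx⟩ = 1 := by
    have : f ⟨x, hPM hx⟩ ∈ (P.subgroupOf M).map f :=
      ⟨⟨x, hPM hx⟩, by rw [SetLike.mem_coe, Subgroup.mem_subgroupOf]; exact hx, rfl⟩
    rw [hbot] at this
    exact this
  have h2 : f ⟨x, hPM hx⟩ ⟨(⟨m⁻¹, M.inv_mem hm⟩ : ↥M) • b, MulAction.mem_orbit _ _⟩ =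
      ⟨(⟨m⁻¹, M.inv_mem hm⟩ : ↥M) • b, MulAction.mem_orbit _ _⟩ := by
    rw [h1]; rfl
  rw [hf] at h2
  have h3 : x • (m⁻¹ • b) = m⁻¹ • b := congrArg Subtype.val h2
  have h4 : m * x * m⁻¹ ∈ MulAction.stabilizer G b := by
    rw [MulAction.mem_stabilizer_iff, mul_smul, mul_smul, h3, smul_inv_smul]
  rw [hN]
  exact h4

end Cfsg.Agent.Lib.Helper92
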